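import Mathlib

/-!
# A group of order 7920 acting transitively and faithfully on 11 points has at most 4096 maximal subgroups (helper96)
-/

set_option autoImplicit false
set_option linter.unusedSectionVars false

namespace Cfsg.Agent.H96.EPM

open Subgroup MulAction
open scoped Pointwise

section

variable {G : Type*} [Group G] [Finite G] {Ω : Type*} [Finite Ω] [MulAction G Ω]

/-- the order of the orbits divides the order of the group -/
theorem orbit_dvd {H : Type*} [Group H] {Ω : Type*} [MulAction H Ω] (ω : Ω) :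
    (orbit H ω).ncard ∣ Nat.card H := by
  rw [← MulAction.index_stabilizer]
  exact Subgroup.index_dvd_card _

/-- the intransitive maximal subgroups -/
theorem card_intrans [IsPretransitive G Ω] (hΩ : Nat.card Ω = 11) :
    {M : Subgroup G | IsCoatom M ∧ ¬ 11 ∣ Nat.card M}.ncard ≤ 2 ^ 11 := by
  classical
  have := Fintype.ofFinite Ω
  have hsub : {M : Subgroup G | IsCoatom M ∧ ¬ 11 ∣ Nat.card M} ⊆
      (fun Δ : Set Ω => stabilizer G Δ) '' Set.univ := by
    rintro M ⟨hM, h11⟩
    have hne : Nonempty Ω := (Nat.card_pos_iff.1 (by rw [hΩ]; norm_num)).1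
    obtain ⟨ω⟩ := hne
    refine ⟨orbit M ω, trivial, ?_⟩
    have h1 : M ≤ stabilizer G (orbit M ω) := by
      intro m hm
      rw [mem_stabilizer_iff]
      exact MulAction.smul_orbit (⟨m, hm⟩ : M) ω
    have h2 : stabilizer G (orbit M ω) ≠ ⊤ := by
      intro h
      apply h11
      have h3 : orbit M ω = Set.univ := by
        rw [Set.eq_univ_iff_forall]
        intro y
        obtain ⟨g, rfl⟩ := exists_smul_eq G ω y
        have h4 : g ∈ stabilizer G (orbit M ω) := by rw [h]; trivial
        rw [mem_stabilizer_iff] at h4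
        rw [← h4]
        exact Set.smul_mem_smul_set (mem_orbit_self ω)
      have h4 := orbit_dvd (H := M) ω
      rwa [h3, Set.ncard_univ, hΩ] at h4
    rcases hM.le_iff.1 h1 with h3 | h3
    · exact (h2 h3).elim
    · exact h3
  refine (Set.ncard_le_ncard hsub (Set.toFinite _)).trans ((Set.ncard_image_le (Set.toFinite _)).trans ?_)
  rw [Set.ncard_univ, Nat.card_eq_fintype_card, Fintype.card_set, ← Nat.card_eq_fintype_card, hΩ]

section Sylow

variable (hG : Nat.card G = 7920) (P : Sylow 11 G)

include hG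

theorem card_P : Nat.card (P : Subgroup G) = 11 := by
  have : Fact (Nat.Prime 11) := ⟨by norm_num⟩
  obtain ⟨k, hk⟩ := IsPGroup.iff_card.1 P.isPGroup'
  have h1 : 11 ∣ Nat.card (P : Subgroup G) := P.dvd_card_of_dvd_card (by rw [hG]; norm_num)
  have h2 : Nat.card (P : Subgroup G) ∣ 7920 := by
    rw [← hG]
    exact Subgroup.card_subgroup_dvd_card _
  rw [hk] at h1 h2 ⊢
  rcases k with _ | _ | k
  · norm_num at h1
  · norm_num
  · exfalso
    have h3 : 11 ^ 2 ∣ 7920 := (pow_dvd_pow 11 (by omega)).trans h2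
    norm_num at h3

/-- a Sylow 11-subgroup is transitive -/
theorem P_trans [FaithfulSMul G Ω] (hΩ : Nat.card Ω = 11) (ω : Ω) : orbit (P : Subgroup G) ω = Set.univ := by
  have hP := card_P hG P
  have hprime : Nat.Prime 11 := by norm_num
  have key : ∃ ω : Ω, orbit (P : Subgroup G) ω = Set.univ := by
    by_contra hcon
    push Not at hcon
    have h1 : ∀ ω : Ω, ∀ p : (P : Subgroup G), p • ω = ω := by
      intro ω
      have h2 := orbit_dvd (H := (P : Subgroup G)) ω
      rw [hP] at h2
      rcases (Nat.dvd_prime hprime).1 h2 with h3 | h3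
      · obtain ⟨a, ha⟩ := Set.ncard_eq_one.1 h3
        have h4 : ω ∈ orbit (P : Subgroup G) ω := mem_orbit_self ω
        intro p
        have h5 : p • ω ∈ orbit (P : Subgroup G) ω := mem_orbit _ _
        rw [ha, Set.mem_singleton_iff] at h4 h5
        rw [h5, ← h4]
      · exfalso
        apply hcon ω
        have h4 : (Set.univ : Set Ω).ncard = 11 := by rw [Set.ncard_univ, hΩ]
        exact Set.eq_of_subset_of_ncard_le (Set.subset_univ _) (h4.trans h3.symm).le (Set.toFinite _)
    have h2 : (P : Subgroup G) = ⊥ := by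
      rw [Subgroup.eq_bot_iff_forall]
      intro p hp
      apply eq_of_smul_eq_smul (α := Ω)
      intro ω
      rw [one_smul]
      exact h1 ω ⟨p, hp⟩
    rw [h2, Subgroup.card_bot] at hP
    norm_num at hP
  obtain ⟨ω', h'⟩ := key
  have h2 : ω ∈ orbit (P : Subgroup G) ω' := by rw [h']; trivial
  rw [← h']
  exact orbit_eq_iff.2 h2

theorem centralizer_le [FaithfulSMul G Ω] (hΩ : Nat.card Ω = 11) : centralizer ((P : Subgroup G) : Set G) ≤ P := by
  intro c hc
  have hne : Nonempty Ω := (Nat.card_pos_iff.1 (by rw [hΩ]; norm_num)).1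
  obtain ⟨ω⟩ := hne
  have hP := card_P hG P
  have hcyc : IsCyclic (P : Subgroup G) := by
    have : Fact (Nat.Prime 11) := ⟨by norm_num⟩
    exact isCyclic_of_prime_card hP
  have h1 : c • ω ∈ orbit (P : Subgroup G) ω := by rw [P_trans hG P hΩ]; trivial
  obtain ⟨p, hp⟩ := h1
  have hp' : (p : G) • ω = c • ω := hp
  have h2 : c = p := by
    apply eq_of_smul_eq_smul (α := Ω)
    intro y
    have h3 : y ∈ orbit (P : Subgroup G) ω := by rw [P_trans hG P hΩ]; trivial
    obtain ⟨q, rfl⟩ := h3
    show c • (q : G) • ω = (p : G) • (q : G) • ω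
    have h4 : (q : G) * c = c * q := mem_centralizer_iff.1 hc q q.2
    have h5 : (p : G) * q = q * p := by
      have : IsMulCommutative (P : Subgroup G) := hcyc.isMulCommutative
      have h6 := mul_comm' p q
      exact congrArg Subtype.val h6
    rw [smul_smul, smul_smul, ← h4, h5, mul_smul, mul_smul, hp']
  rw [h2]
  exact p.2

theorem card_normalizer [FaithfulSMul G Ω] (hΩ : Nat.card Ω = 11) :
    Nat.card (normalizer ((P : Subgroup G) : Set G)) = 55 ∧ Nat.card (Sylow 11 G) = 144 := by
  have : Fact (Nat.Prime 11) := ⟨by norm_num⟩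
  have hP := card_P hG P
  have hcyc : IsCyclic (P : Subgroup G) := isCyclic_of_prime_card hP
  set N := normalizer ((P : Subgroup G) : Set G) with hN
  -- `|N| ∣ 110`
  have h110 : Nat.card N ∣ 110 := by
    let f := (P : Subgroup G).normalizerMonoidHom
    have h1 : Nat.card N = Nat.card f.range * Nat.card f.ker := by
      have h2 := Subgroup.card_mul_index f.ker
      rw [Subgroup.index_ker] at h2
      rw [← h2, mul_comm]
    have h2 : Nat.card f.ker ∣ Nat.card (P : Subgroup G) := by
      have h3 : f.ker = (centralizer ((P : Subgroup G) : Set G)).subgroupOf N :=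
        Subgroup.normalizerMonoidHom_ker _
      rw [h3]
      refine (Subgroup.card_comap_dvd_of_injective _ _ (Subgroup.subtype_injective _)).trans ?_
      exact Subgroup.card_dvd_of_le (centralizer_le hG P hΩ)
    rw [hP] at h2
    have h3 : Nat.card f.range ∣ 10 := by
      have h4 : Nat.card (MulAut (P : Subgroup G)) = 10 := by
        rw [IsCyclic.card_mulAut, hP]
        decide
      rw [← h4]
      exact Subgroup.card_subgroup_dvd_card _
    rw [h1]
    exact (mul_dvd_mul h3 h2)
  have hidx : Nat.card (Sylow 11 G) = N.index := P.card_eq_index_normalizer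
  have hmod : Nat.card (Sylow 11 G) % 11 = 1 := card_sylow_modEq_one 11 G
  have hmul := Subgroup.card_mul_index N
  rw [← hidx, hG] at hmul
  have hcases : ∀ m ∈ Nat.divisors 110, ∀ k : ℕ, m * k = 7920 → k % 11 = 1 → m = 55 := by
    intro m hm k hk hk1
    have h1 : m ∈ ({1, 2, 5, 10, 11, 22, 55, 110} : Finset ℕ) := by
      have h2 : Nat.divisors 110 = {1, 2, 5, 10, 11, 22, 55, 110} := by decide +kernel
      rwa [h2] at hm
    simp only [Finset.mem_insert, Finset.mem_singleton] at h1
    rcases h1 with rfl | rfl | rfl | rfl | rfl | rfl | rfl | rfl <;> omega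
  have h55 := hcases _ (Nat.mem_divisors.2 ⟨h110, by norm_num⟩) _ hmul hmod
  rw [h55] at hmul
  exact ⟨h55, by omega⟩

/-- the overgroups of a Sylow 11-subgroup -/
theorem overgroup [FaithfulSMul G Ω] (hΩ : Nat.card Ω = 11) {D : Subgroup G} (hD : (P : Subgroup G) ≤ D) :
    D ≤ normalizer ((P : Subgroup G) : Set G) ∨ Nat.card D = 660 ∨ Nat.card D = 7920 := by
  have : Fact (Nat.Prime 11) := ⟨by norm_num⟩
  have hP := card_P hG P
  obtain ⟨h55, h144⟩ := card_normalizer (Ω := Ω) hG P hΩ
  let P' : Sylow 11 D := P.subtype hD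
  have hP' : Nat.card (P' : Subgroup D) = 11 := by
    have h1 : (P' : Subgroup D) = (P : Subgroup G).subgroupOf D := Sylow.coe_subtype _ _
    rw [h1, Nat.card_congr (Subgroup.subgroupOfEquivOfLe hD).toEquiv, hP]
  have hP'P : (P' : Subgroup D).map D.subtype = P := by
    rw [Sylow.coe_subtype, subgroupOf_map_subtype, inf_eq_left.2 hD]
  set N' := normalizer ((P' : Subgroup D) : Set D) with hN'
  have hN'le : N'.map D.subtype ≤ normalizer ((P : Subgroup G) : Set G) := by
    rintro _ ⟨g, hg, rfl⟩
    have hg' := mem_normalizer_iff.1 hg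
    rw [mem_normalizer_iff]
    intro x
    rw [← hP'P]
    constructor
    · rintro ⟨y, hy, rfl⟩
      exact ⟨g * y * g⁻¹, (hg' y).1 hy, by simp⟩
    · rintro ⟨y, hy, hxy⟩
      refine ⟨g⁻¹ * y * g, ?_, ?_⟩
      · apply (hg' _).2
        have h1 : g * (g⁻¹ * y * g) * g⁻¹ = y := by group
        rwa [h1]
      · rw [map_mul, map_mul, map_inv, hxy]
        group
  have hN'55 : Nat.card N' ∣ 55 := by
    rw [← h55, ← Subgroup.card_map_of_injective (f := D.subtype) D.subtype_injective]
    exact Subgroup.card_dvd_of_le hN'le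
  have h11N : 11 ∣ Nat.card N' := by
    rw [← hP']
    exact Subgroup.card_dvd_of_le le_normalizer
  have hidx : Nat.card (Sylow 11 D) = N'.index := P'.card_eq_index_normalizer
  have hmod : Nat.card (Sylow 11 D) % 11 = 1 := card_sylow_modEq_one 11 D
  have hmul := Subgroup.card_mul_index N'
  rw [← hidx] at hmul
  have hDdvd : Nat.card D ∣ 7920 := by
    rw [← hG]
    exact Subgroup.card_subgroup_dvd_card _
  have hN'c : Nat.card N' = 11 ∨ Nat.card N' = 55 := by
    obtain ⟨a, ha⟩ := h11N
    rw [ha] at hN'55 ⊢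
    have h1 : a ∣ 5 := Nat.dvd_of_mul_dvd_mul_left (k := 11) (by norm_num) hN'55
    rcases (Nat.dvd_prime (by norm_num)).1 h1 with rfl | rfl
    · left; rfl
    · right; rfl
  rcases hN'c with h1 | h1
  · -- normal complement
    left
    have hNP : N' = P' := (Subgroup.eq_of_le_of_card_ge le_normalizer (by rw [h1, hP'])).symm
    have hcyc : IsCyclic (P' : Subgroup D) := isCyclic_of_prime_card hP'
    have hcomm : N' ≤ centralizer ((P' : Subgroup D) : Set D) := by
      rw [hNP]
      intro x hx
      rw [mem_centralizer_iff]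
      intro y hy
      have : IsMulCommutative (P' : Subgroup D) := hcyc.isMulCommutative
      exact congrArg Subtype.val (mul_comm' (⟨y, hy⟩ : (P' : Subgroup D)) ⟨x, hx⟩)
    set K := (MonoidHom.transferSylow P' hcomm).ker with hK
    have hcompl := MonoidHom.ker_transferSylow_isComplement' P' hcomm
    have hcard := hcompl.card_mul_card
    have hK11 : ¬ 11 ∣ Nat.card K := MonoidHom.not_dvd_card_ker_transferSylow P' hcomm
    have hne : Nonempty Ω := (Nat.card_pos_iff.1 (by rw [hΩ]; norm_num)).1
    have htr : IsPretransitive D Ω := by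
      obtain ⟨ω⟩ := hne
      refine (MulAction.isPretransitive_iff_orbit_eq_univ ω).2 ?_
      rw [Set.eq_univ_iff_forall]
      intro y
      have h2 : y ∈ orbit (P : Subgroup G) ω := by rw [P_trans hG P hΩ]; trivial
      obtain ⟨p, rfl⟩ := h2
      exact ⟨⟨p, hD p.2⟩, rfl⟩
    have hfix : ∀ (k : K) (ω : Ω), k • ω = ω := by
      intro k ω
      have hB : IsBlock D (orbit K ω) := IsBlock.orbit_of_normal ω
      have h2 := hB.ncard_dvd_card ⟨ω, mem_orbit_self ω⟩
      rw [hΩ] at h2
      rcases (Nat.dvd_prime (by norm_num)).1 h2 with h3 | h3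
      · obtain ⟨a, ha⟩ := Set.ncard_eq_one.1 h3
        have h4 : ω ∈ orbit K ω := mem_orbit_self ω
        have h5 : k • ω ∈ orbit K ω := mem_orbit _ _
        rw [ha, Set.mem_singleton_iff] at h4 h5
        rw [h5, ← h4]
      · exfalso
        apply hK11
        rw [← h3]
        exact orbit_dvd ω
    have hKbot : Nat.card K = 1 := by
      have h2 : K = ⊥ := by
        rw [Subgroup.eq_bot_iff_forall]
        intro k hk
        apply Subtype.ext
        apply eq_of_smul_eq_smul (α := Ω)
        intro ω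
        rw [Subgroup.coe_one, one_smul]
        exact hfix ⟨k, hk⟩ ω
      rw [h2, Subgroup.card_bot]
    rw [hKbot, one_mul, hP'] at hcard
    have h2 : (P : Subgroup G) = D := Subgroup.eq_of_le_of_card_ge hD (by rw [← hcard, hP])
    rw [← h2]
    exact le_normalizer
  · rw [h1] at hmul
    have h2 : Nat.card (Sylow 11 D) ∣ 144 := by
      refine Nat.dvd_of_mul_dvd_mul_left (k := 55) (by norm_num) ?_
      rw [hmul]
      exact hDdvd
    have hcases : ∀ m ∈ Nat.divisors 144, m % 11 = 1 → m = 1 ∨ m = 12 ∨ m = 144 := by decide +kernel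
    rcases hcases _ (Nat.mem_divisors.2 ⟨h2, by norm_num⟩) hmod with h3 | h3 | h3
    · left
      rw [h3, mul_one] at hmul
      have h4 : N' = ⊤ := Subgroup.eq_top_of_card_eq _ (h1.trans hmul)
      have h5 : D = N'.map D.subtype := by
        rw [h4, ← MonoidHom.range_eq_map, Subgroup.range_subtype]
      rw [h5]
      exact hN'le
    · right; left
      rw [← hmul, h3]
    · right; right
      rw [← hmul, h3]

/-- the subgroups of order 660 containing a Sylow 11-subgroup -/
theorem card_660 [FaithfulSMul G Ω] (hΩ : Nat.card Ω = 11) :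
    {M : Subgroup G | (P : Subgroup G) ≤ M ∧ Nat.card M = 660}.ncard ≤ 13 := by
  classical
  have := Fintype.ofFinite G
  obtain ⟨h55, h144⟩ := card_normalizer (Ω := Ω) hG P hΩ
  set N := normalizer ((P : Subgroup G) : Set G) with hN
  have hfin : {M : Subgroup G | (P : Subgroup G) ≤ M ∧ Nat.card M = 660}.Finite := Set.toFinite _
  set T : Finset (Subgroup G) := hfin.toFinset with hT
  have hmem : ∀ M, M ∈ T ↔ (P : Subgroup G) ≤ M ∧ Nat.card M = 660 := fun M => by
    rw [hT, Set.Finite.mem_toFinset]
    rfl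
  rw [Set.ncard_eq_toFinset_card _ hfin]
  -- the sets `M \ N` are disjoint
  let f : Subgroup G → Finset G := fun M => ((M : Set G) \ N).toFinset
  have hdis : ∀ M ∈ T, ∀ M' ∈ T, M ≠ M' → Disjoint (f M) (f M') := by
    intro M hM M' hM' hne
    rw [hmem] at hM hM'
    rw [Finset.disjoint_left]
    intro x hx hx'
    rw [Set.mem_toFinset] at hx hx'
    have h1 : (P : Subgroup G) ≤ M ⊓ M' := le_inf hM.1 hM'.1
    have hlt : Nat.card (M ⊓ M' : Subgroup G) < 660 := by
      by_contra hge
      push Not at hge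
      apply hne
      have h2 : M ⊓ M' = M := Subgroup.eq_of_le_of_card_ge inf_le_left (by rw [hM.2]; exact hge)
      have h3 : M ⊓ M' = M' := Subgroup.eq_of_le_of_card_ge inf_le_right (by rw [hM'.2]; exact hge)
      rw [← h2, h3]
    rcases overgroup hG P hΩ h1 with h2 | h2 | h2
    · exact hx.2 (h2 ⟨hx.1, hx'.1⟩)
    · omega
    · omega
  have hcard : ∀ M ∈ T, 605 ≤ (f M).card := by
    intro M hM
    rw [hmem] at hM
    have h1 : (f M).card = ((M : Set G) \ N).ncard := (Set.ncard_eq_toFinset_card' _).symm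
    rw [h1]
    have h2 := Set.le_ncard_sdiff (N : Set G) (M : Set G)
    have h3 : (M : Set G).ncard = 660 := by
      rw [← hM.2]
      rfl
    have h4 : (N : Set G).ncard = 55 := by
      rw [← h55]
      rfl
    rw [h3, h4] at h2
    exact h2
  have hbU : (T.biUnion f).card = ∑ M ∈ T, (f M).card := Finset.card_biUnion hdis
  have hle : (T.biUnion f).card ≤ 7865 := by
    have h1 : T.biUnion f ⊆ ((N : Set G)ᶜ).toFinset := by
      intro x hx
      rw [Finset.mem_biUnion] at hx
      obtain ⟨M, -, hx⟩ := hx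
      rw [Set.mem_toFinset] at hx ⊢
      exact hx.2
    refine (Finset.card_le_card h1).trans ?_
    have h2 : (((N : Set G)ᶜ).toFinset).card = ((N : Set G)ᶜ).ncard := (Set.ncard_eq_toFinset_card' _).symm
    rw [h2]
    have h3 := Set.ncard_add_ncard_compl (N : Set G)
    have h4 : (N : Set G).ncard = 55 := by
      rw [← h55]
      rfl
    rw [h4, hG] at h3
    omega
  have hsum : T.card * 605 ≤ ∑ M ∈ T, (f M).card := by
    rw [← smul_eq_mul]
    exact Finset.card_nsmul_le_sum _ _ _ hcard
  rw [hbU] at hle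
  have h2 := hsum.trans hle
  show T.card ≤ 13
  omega

/-- the maximal subgroups containing a Sylow 11-subgroup -/
theorem card_over [FaithfulSMul G Ω] (hΩ : Nat.card Ω = 11) :
    {M : Subgroup G | IsCoatom M ∧ (P : Subgroup G) ≤ M}.ncard ≤ 14 := by
  have hsub : {M : Subgroup G | IsCoatom M ∧ (P : Subgroup G) ≤ M} ⊆
      insert (normalizer ((P : Subgroup G) : Set G)) {M : Subgroup G | (P : Subgroup G) ≤ M ∧ Nat.card M = 660} := by
    rintro M ⟨hM, hPM⟩
    rcases overgroup hG P hΩ hPM with h2 | h2 | h2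
    · left
      rcases hM.le_iff.1 h2 with h3 | h3
      · exfalso
        have h4 := (card_normalizer (Ω := Ω) hG P hΩ).1
        rw [h3, Subgroup.card_top, hG] at h4
        norm_num at h4
      · exact h3.symm
    · right
      exact ⟨hPM, h2⟩
    · exact (hM.1 (Subgroup.eq_top_of_card_eq _ (h2.trans hG.symm))).elim
  refine (Set.ncard_le_ncard hsub (Set.toFinite _)).trans ((Set.ncard_insert_le _ _).trans ?_)
  have := card_660 hG P hΩ
  omega

end Sylow

theorem card_trans [FaithfulSMul G Ω] (hΩ : Nat.card Ω = 11) (hG : Nat.card G = 7920) :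
    {M : Subgroup G | IsCoatom M ∧ 11 ∣ Nat.card M}.ncard ≤ 2016 := by
  classical
  have hp : Fact (Nat.Prime 11) := ⟨by norm_num⟩
  have := Fintype.ofFinite (Sylow 11 G)
  have := Fintype.ofFinite (Subgroup G)
  have h144 : Nat.card (Sylow 11 G) = 144 := by
    have hne : Nonempty (Sylow 11 G) := inferInstance
    obtain ⟨P⟩ := hne
    exact (card_normalizer (Ω := Ω) hG P hΩ).2
  let f : Sylow 11 G → Finset (Subgroup G) := fun P => {M : Subgroup G | IsCoatom M ∧ (P : Subgroup G) ≤ M}.toFinset
  have hsub : {M : Subgroup G | IsCoatom M ∧ 11 ∣ Nat.card M} ⊆ ((Finset.univ.biUnion f : Finset (Subgroup G)) : Set _) := by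
    rintro M ⟨hM, h11⟩
    rw [Finset.mem_coe, Finset.mem_biUnion]
    -- a Sylow 11-subgroup of `M` is one of `G`
    obtain ⟨Q⟩ : Nonempty (Sylow 11 M) := inferInstance
    have hQ : IsPGroup 11 ((Q : Subgroup M).map M.subtype) := Q.isPGroup'.map _
    obtain ⟨P, hP⟩ := hQ.exists_le_sylow
    refine ⟨P, Finset.mem_univ _, ?_⟩
    rw [Set.mem_toFinset]
    refine ⟨hM, ?_⟩
    have h1 : (Q : Subgroup M).map M.subtype = P := by
      refine Subgroup.eq_of_le_of_card_ge hP ?_
      rw [card_P hG P, Subgroup.card_map_of_injective M.subtype_injective]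
      exact Nat.le_of_dvd Nat.card_pos (Q.dvd_card_of_dvd_card h11)
    rw [← h1]
    exact map_subtype_le _
  have h1 := Set.ncard_le_ncard hsub (Finset.finite_toSet _)
  rw [Set.ncard_coe_finset] at h1
  refine h1.trans (Finset.card_biUnion_le.trans ?_)
  have h2 : ∑ P : Sylow 11 G, (f P).card ≤ Fintype.card (Sylow 11 G) • 14 := by
    refine Finset.sum_le_card_nsmul _ _ _ (fun P _ => ?_)
    have h3 : (f P).card = {M : Subgroup G | IsCoatom M ∧ (P : Subgroup G) ≤ M}.ncard :=
      (Set.ncard_eq_toFinset_card' _).symm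
    rw [h3]
    exact card_over hG P hΩ
  refine h2.trans ?_
  rw [← Nat.card_eq_fintype_card, h144]
  norm_num

/-- **At most 4096 maximal subgroups.** -/
theorem card_coatom [FaithfulSMul G Ω] [IsPretransitive G Ω] (hΩ : Nat.card Ω = 11) (hG : Nat.card G = 7920) :
    {M : Subgroup G | IsCoatom M}.ncard ≤ 4096 := by
  have h1 : {M : Subgroup G | IsCoatom M} = {M : Subgroup G | IsCoatom M ∧ ¬ 11 ∣ Nat.card M} ∪
      {M : Subgroup G | IsCoatom M ∧ 11 ∣ Nat.card M} := by
    ext M
    simp only [Set.mem_ofPred_eq, Set.mem_union]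
    tauto
  rw [h1]
  refine (Set.ncard_union_le _ _).trans ?_
  have h2 := card_intrans (G := G) hΩ
  have h3 := card_trans (G := G) (Ω := Ω) hΩ hG
  norm_num at h2
  omega

end

end Cfsg.Agent.H96.EPM
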